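-- Team project S4033 (helper9), package [E] (helper54): at most one prime `s ≠ p` has `s`-part
-- of `a` smaller than the `s`-part of `|G|`.
import Mathlib
import Cfsg.Agent.Lib.Helper9.S4033.Defs

set_option autoImplicit false

namespace Cfsg.Agent.Lib.Helper54.S4033

open Cfsg.Agent.Lib.Helper9.S4033

universe u

theorem nmh_apply54 {G : Type u} [Group G] (A : Subgroup G)
    (n : Subgroup.normalizer (A : Set G)) (v : A) :
    ((A.normalizerMonoidHom n v : A) : G) = (n : G) * v * (n : G)⁻¹ := rfl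

theorem orderOf_conjE54 {G : Type u} [Group G] (g x : G) :
    orderOf (g * x * g⁻¹) = orderOf x := by
  have := MulEquiv.orderOf_eq (MulAut.conj g) x
  simpa [MulAut.conj_apply] using this

theorem conj_comm_iff54 {G : Type u} [Group G] (g h u : G) :
    g * h * g⁻¹ * (g * u * g⁻¹) = g * u * g⁻¹ * (g * h * g⁻¹) ↔ h * u = u * h := by
  constructor
  · intro e
    have e' : g * (h * u) * g⁻¹ = g * (u * h) * g⁻¹ := by
      calc g * (h * u) * g⁻¹ = g * h * g⁻¹ * (g * u * g⁻¹) := by group
        _ = g * u * g⁻¹ * (g * h * g⁻¹) := e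
        _ = g * (u * h) * g⁻¹ := by group
    exact mul_left_cancel (mul_right_cancel e')
  · intro e
    calc g * h * g⁻¹ * (g * u * g⁻¹) = g * (h * u) * g⁻¹ := by group
      _ = g * (u * h) * g⁻¹ := by rw [e]
      _ = g * u * g⁻¹ * (g * h * g⁻¹) := by group

/-- [E] from [MEM], [ACT], [GR] and [PE]. -/
theorem pkgE (hMem : PkgMem.{u}) (hAct : PkgAct.{u}) (hGr : PkgGr.{u}) (hPE : PkgPE.{u}) :
    PkgE.{u} := by
  intro G _ _ p a hp hap hX ⟨u, hup, huZ⟩ s t hs ht hsp htp hsa hta
  obtain ⟨A, hAc, hAmem, hAcard, hAcen, hAcc⟩ := hMem G p a hp hap hX u hup huZ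
  have huA : u ∈ A := (hAmem u).2 ⟨Subgroup.mem_centralizer_singleton_iff.2 rfl, hup⟩
  have hcomm : ∀ x y : A, x * y = y * x := fun x y => hAc.is_comm.comm x y
  have hfpf : ∀ e ∈ A.normalizerMonoidHom.range, e ≠ 1 → ∀ v : A, e v = v →
      v ∈ (Subgroup.center G).subgroupOf A := by
    rintro e ⟨n, rfl⟩ hne v hv
    rw [Subgroup.mem_subgroupOf]
    by_contra hvZ
    apply hne
    have h1 : (n : G) * v * (n : G)⁻¹ = v := by
      have := congrArg Subtype.val hv
      rwa [nmh_apply54] at this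
    have hnC : (n : G) ∈ Subgroup.centralizer ({(v : G)} : Set G) := by
      rw [Subgroup.mem_centralizer_singleton_iff]
      calc (n : G) * v = (n : G) * v * (n : G)⁻¹ * n := by group
        _ = v * n := by rw [h1]
    rw [hAcen v v.2 hvZ] at hnC
    ext y
    rw [nmh_apply54]
    have := hAcc (n : G) hnC y y.2
    simp only [MulAut.one_apply]
    rw [this]
    group
  have hfix : ∀ e ∈ A.normalizerMonoidHom.range, ∀ z ∈ (Subgroup.center G).subgroupOf A,
      e z = z := by
    rintro e ⟨n, rfl⟩ z hz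
    rw [Subgroup.mem_subgroupOf] at hz
    apply Subtype.ext
    rw [nmh_apply54]
    have := Subgroup.mem_center_iff.1 hz (n : G)
    rw [this]
    group
  have hnc : ∀ r : ℕ, r.Prime → r ≠ p → r ∣ Nat.card A.normalizerMonoidHom.range →
      ∃ v : A, v ∉ (Subgroup.center G).subgroupOf A ∧ ∃ k : ℕ, orderOf v = r ^ k := by
    intro r hr hrp hdvd
    have : Fact r.Prime := ⟨hr⟩
    obtain ⟨e, he⟩ := exists_prime_orderOf_dvd_card' r hdvd
    obtain ⟨n, hn⟩ := e.2
    obtain ⟨j, m, hm, hjm⟩ := Nat.exists_eq_pow_mul_and_not_dvd (orderOf_pos n).ne' r hr.ne_one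
    have hn'pow : (n ^ m) ^ r ^ j = 1 := by
      rw [← pow_mul, mul_comm, ← hjm]
      exact pow_orderOf_eq_one n
    have hphi' : A.normalizerMonoidHom (n ^ m) ≠ 1 := by
      rw [map_pow, hn]
      intro h1
      have h2 : orderOf (e : MulAut A) ∣ m := orderOf_dvd_of_pow_eq_one h1
      rw [Subgroup.orderOf_coe, he] at h2
      exact hm h2
    have hnZ : ((n ^ m : Subgroup.normalizer (A : Set G)) : G) ∉ Subgroup.center G := by
      intro hz
      apply hphi'
      ext y
      rw [nmh_apply54]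
      simp only [MulAut.one_apply]
      have := Subgroup.mem_center_iff.1 hz (y : G)
      rw [← this]
      group
    have hNC : NC G r := by
      refine ⟨((n ^ m : Subgroup.normalizer (A : Set G)) : G), hnZ, ?_⟩
      have h1 : ((n ^ m : Subgroup.normalizer (A : Set G)) : G) ^ r ^ j = 1 := by
        have := congrArg Subtype.val hn'pow
        simpa using this
      obtain ⟨i, -, hi⟩ := (Nat.dvd_prime_pow hr).1 (orderOf_dvd_of_pow_eq_one h1)
      exact ⟨i, hi⟩
    obtain ⟨v, hvZ, ⟨k, hk⟩, hvu⟩ := hAct G p a hp hap hX r hr hrp hNC u hup huZ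
    have hvA : v ∈ A := (hAmem v).2 ⟨Subgroup.mem_centralizer_singleton_iff.2 hvu, by
      rw [hk]; exact Nat.Coprime.pow_left k ((Nat.coprime_primes hr hp).2 hrp)⟩
    refine ⟨⟨v, hvA⟩, ?_, k, ?_⟩
    · rw [Subgroup.mem_subgroupOf]; exact hvZ
    · rw [Subgroup.orderOf_mk]; exact hk
  have hdiv : ∀ s : ℕ, s.Prime → s ≠ p → a.factorization s < (Nat.card G).factorization s →
      s ∣ Nat.card A.normalizerMonoidHom.range := by
    intro s hs hsp hsa
    obtain ⟨g, ⟨k, hk⟩, hgu, hgC⟩ := hGr G p a hp hap hX u hup huZ s hs hsp hsa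
    have hgN : g ∈ Subgroup.normalizer (A : Set G) := by
      rw [Subgroup.mem_set_normalizer_iff]
      intro h
      rw [SetLike.mem_coe, SetLike.mem_coe, hAmem h, hAmem (g * h * g⁻¹), orderOf_conjE54]
      have h1 : g * h * g⁻¹ ∈ Subgroup.centralizer ({u} : Set G) ↔
          h ∈ Subgroup.centralizer ({u} : Set G) := by
        conv_lhs => rw [← hgC]
        rw [Subgroup.mem_centralizer_singleton_iff, Subgroup.mem_centralizer_singleton_iff]
        exact conj_comm_iff54 g h u
      rw [h1]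
    have hne : A.normalizerMonoidHom ⟨g, hgN⟩ ≠ 1 := by
      intro h1
      have h2 := congrArg (fun e : MulAut A => ((e ⟨u, huA⟩ : A) : G)) h1
      simp only [MulAut.one_apply] at h2
      rw [nmh_apply54] at h2
      apply hgu
      calc g * u = g * u * g⁻¹ * g := by group
        _ = u * g := by rw [h2]
    have hpow : (A.normalizerMonoidHom ⟨g, hgN⟩) ^ s ^ k = 1 := by
      rw [← map_pow]
      have h1 : (⟨g, hgN⟩ : Subgroup.normalizer (A : Set G)) ^ s ^ k = 1 := by
        apply Subtype.ext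
        simp only [Subgroup.coe_pow, OneMemClass.coe_one]
        rw [← hk]
        exact pow_orderOf_eq_one g
      rw [h1, map_one]
    obtain ⟨i, -, hi⟩ := (Nat.dvd_prime_pow hs).1 (orderOf_dvd_of_pow_eq_one hpow)
    have hi0 : i ≠ 0 := by
      rintro rfl
      rw [pow_zero, orderOf_eq_one_iff] at hi
      exact hne hi
    have h3 : orderOf (A.normalizerMonoidHom ⟨g, hgN⟩) ∣ Nat.card A.normalizerMonoidHom.range :=
      Subgroup.orderOf_dvd_natCard _ ⟨_, rfl⟩
    rw [hi] at h3
    exact (dvd_pow_self s hi0).trans h3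
  exact hPE A hcomm A.normalizerMonoidHom.range ((Subgroup.center G).subgroupOf A) p hp hfpf hfix
    hnc s t hs ht hsp htp (hdiv s hs hsp hsa) (hdiv t ht htp hta)

example : PkgMem.{0} → PkgAct.{0} → PkgGr.{0} → PkgPE.{0} → PkgE.{0} := pkgE
example : PkgMem.{3} → PkgAct.{3} → PkgGr.{3} → PkgPE.{3} → PkgE.{3} := pkgE

end Cfsg.Agent.Lib.Helper54.S4033
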