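-- Team project S4033 (helper9), package [F2] (helper54): if `C(w)` is normal for a noncentral
-- p-regular `w`, then `|G| = p^k * a`.
import Mathlib
import Cfsg.Agent.Lib.Helper9.S4033.Defs

set_option autoImplicit false

namespace Cfsg.Agent.Lib.Helper54.S4033

open Cfsg.Agent.Lib.Helper9.S4033

universe u

section aux

variable {G : Type u} [Group G]

theorem orderOf_conj54 (g x : G) : orderOf (g * x * g⁻¹) = orderOf x := by
  have := MulEquiv.orderOf_eq (MulAut.conj g) x
  simpa [MulAut.conj_apply] using this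

theorem coprime_of_pow54 {x : G} {s p k : ℕ} (hs : s.Prime) (hp : p.Prime) (hsp : s ≠ p)
    (h : x ^ s ^ k = 1) : (orderOf x).Coprime p := by
  obtain ⟨m, -, hm⟩ := (Nat.dvd_prime_pow hs).1 (orderOf_dvd_of_pow_eq_one h)
  rw [hm]
  exact Nat.Coprime.pow_left m ((Nat.coprime_primes hs hp).2 hsp)

/-- The elements of `s`-power order of a commutative subgroup. -/
def sPart (A : Subgroup G) (hA : ∀ x ∈ A, ∀ y ∈ A, x * y = y * x) (s : ℕ) : Subgroup G where
  carrier := {x | x ∈ A ∧ ∃ k : ℕ, x ^ s ^ k = 1}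
  mul_mem' := by
    rintro x y ⟨hx, k, hk⟩ ⟨hy, l, hl⟩
    refine ⟨A.mul_mem hx hy, k + l, ?_⟩
    have hc : Commute x y := hA x hx y hy
    rw [hc.mul_pow, pow_add, pow_mul, hk, one_pow, pow_mul', hl, one_pow, one_mul]
  one_mem' := ⟨A.one_mem, 0, by simp⟩
  inv_mem' := by
    rintro x ⟨hx, k, hk⟩
    exact ⟨A.inv_mem hx, k, by rw [inv_pow, hk, inv_one]⟩

theorem sPart_le (A : Subgroup G) (hA : ∀ x ∈ A, ∀ y ∈ A, x * y = y * x) (s : ℕ) :
    sPart A hA s ≤ A := fun _ hx => hx.1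

theorem sPart_isPGroup (A : Subgroup G) (hA : ∀ x ∈ A, ∀ y ∈ A, x * y = y * x) (s : ℕ) :
    IsPGroup s (sPart A hA s) := by
  intro g
  obtain ⟨-, k, hk⟩ := g.2
  refine ⟨k, ?_⟩
  apply Subtype.ext
  rw [Subgroup.coe_pow, hk]
  rfl

theorem card_sPart [Finite G] (A : Subgroup G) (hA : ∀ x ∈ A, ∀ y ∈ A, x * y = y * x) {s : ℕ}
    (hs : s.Prime) : Nat.card (sPart A hA s) = s ^ (Nat.card A).factorization s := by
  have : Fact s.Prime := ⟨hs⟩
  have hQp : IsPGroup s ((sPart A hA s).subgroupOf A) := by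
    intro g
    have hg : ((g : A) : G) ∈ sPart A hA s := Subgroup.mem_subgroupOf.1 g.2
    obtain ⟨-, k, hk⟩ := hg
    refine ⟨k, ?_⟩
    apply Subtype.ext
    apply Subtype.ext
    simp only [Subgroup.coe_pow, OneMemClass.coe_one]
    exact hk
  obtain ⟨P, hQP⟩ := hQp.exists_le_sylow
  have hPQ : (P : Subgroup A) ≤ (sPart A hA s).subgroupOf A := by
    intro g hg
    rw [Subgroup.mem_subgroupOf]
    refine ⟨g.2, ?_⟩
    obtain ⟨k, hk⟩ := P.isPGroup' ⟨g, hg⟩
    refine ⟨k, ?_⟩
    have hk' : g ^ s ^ k = 1 := by simpa using congrArg Subtype.val hk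
    simpa using congrArg Subtype.val hk'
  have hEq : (sPart A hA s).subgroupOf A = (P : Subgroup A) := le_antisymm hQP hPQ
  have h1 : Nat.card ((sPart A hA s).subgroupOf A) = Nat.card (sPart A hA s) :=
    Nat.card_congr (Subgroup.subgroupOfEquivOfLe (sPart_le A hA s)).toEquiv
  rw [← h1, hEq]
  exact P.card_eq_multiplicity

end aux

/-- [F2] from [MEM], [ACT] and [F2a]. -/
theorem pkgF2 (hMem : PkgMem.{u}) (hAct : PkgAct.{u}) (hF2a : PkgF2a.{u}) : PkgF2.{u} := by
  intro G _ _ p a hp hap hX hTwo w hwZ hwp hwN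
  -- `C(w)` is normal
  have hnorm : ∀ γ y : G, y ∈ Subgroup.centralizer ({w} : Set G) →
      γ * y * γ⁻¹ ∈ Subgroup.centralizer ({w} : Set G) := by
    intro γ y hy
    rw [← hwN γ, Subgroup.mem_centralizer_singleton_iff]
    rw [Subgroup.mem_centralizer_singleton_iff] at hy
    calc γ * y * γ⁻¹ * (γ * w * γ⁻¹) = γ * (y * w) * γ⁻¹ := by group
      _ = γ * (w * y) * γ⁻¹ := by rw [hy]
      _ = γ * w * γ⁻¹ * (γ * y * γ⁻¹) := by group
  obtain ⟨A, hAc, hAmem, hAcard, hAcen, -⟩ := hMem G p a hp hap hX w hwp hwZ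
  by_cases hall : ∀ y : G, (orderOf y).Coprime p → y ∈ Subgroup.centralizer ({w} : Set G)
  · -- every p-regular element centralizes `w`: the index of `C(w)` is a power of `p`
    obtain ⟨k0, hk0⟩ := (hX w hwp hwZ).2
    have hidx : ∀ {r : ℕ}, r.Prime → r ∣ (Subgroup.centralizer ({w} : Set G)).index → r = p := by
      intro r hr hdvd
      by_contra hne
      have : Fact r.Prime := ⟨hr⟩
      obtain ⟨R⟩ : Nonempty (Sylow r G) := inferInstance
      have hRC : (R : Subgroup G) ≤ Subgroup.centralizer ({w} : Set G) := by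
        intro g hg
        apply hall
        obtain ⟨k, hk⟩ := R.isPGroup' ⟨g, hg⟩
        have hk' : g ^ r ^ k = 1 := by simpa using congrArg Subtype.val hk
        exact coprime_of_pow54 hr hp hne hk'
      have h1 := Subgroup.relIndex_mul_index hRC
      exact R.not_dvd_index (h1 ▸ Dvd.dvd.mul_left hdvd _)
    have hne0 : (Subgroup.centralizer ({w} : Set G)).index ≠ 0 := Subgroup.index_ne_zero_of_finite
    have hj := Nat.eq_prime_pow_of_unique_prime_dvd hne0 hidx
    refine ⟨k0 + (Subgroup.centralizer ({w} : Set G)).index.primeFactorsList.length, ?_⟩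
    have hmul := (Subgroup.centralizer ({w} : Set G)).card_mul_index
    rw [← hmul, hk0]
    conv_lhs => rw [hj]
    ring
  · -- a p-regular `h` outside `C(w)`
    push Not at hall
    obtain ⟨h, hhp, hhC⟩ := hall
    have hhZ : h ∉ Subgroup.center G := fun hz =>
      hhC (Subgroup.mem_centralizer_singleton_iff.2 ((Subgroup.mem_center_iff.1 hz w).symm))
    obtain ⟨B, hBc, hBmem, hBcard, hBcen, -⟩ := hMem G p a hp hap hX h hhp hhZ
    have hAB : ∀ y ∈ A, y ∈ B → y ∈ Subgroup.center G := by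
      intro y hyA hyB
      by_contra hyZ
      have e1 := hAcen y hyA hyZ
      have e2 := hBcen y hyB hyZ
      apply hhC
      rw [← e1, e2]
      exact Subgroup.mem_centralizer_singleton_iff.2 rfl
    have hAcomm : ∀ x ∈ A, ∀ y ∈ A, x * y = y * x := fun x hx y hy =>
      congrArg Subtype.val (hAc.is_comm.comm (⟨x, hx⟩ : A) ⟨y, hy⟩)
    have hBcomm : ∀ x ∈ B, ∀ y ∈ B, x * y = y * x := fun x hx y hy =>
      congrArg Subtype.val (hBc.is_comm.comm (⟨x, hx⟩ : B) ⟨y, hy⟩)
    have hZcomm : ∀ x ∈ Subgroup.center G, ∀ y ∈ Subgroup.center G, x * y = y * x :=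
      fun x hx y _ => (Subgroup.mem_center_iff.1 hx y).symm
    have key : ∀ s t : ℕ, s.Prime → t.Prime → s ≠ t → s ≠ p → t ≠ p → NC G t →
        Nat.card (sPart B hBcomm s) * Nat.card (sPart (Subgroup.center G) hZcomm t) <
        Nat.card (sPart A hAcomm t) * Nat.card (sPart (Subgroup.center G) hZcomm s) := by
      intro s t hs ht hst hsp htp hNt
      apply hF2a G s t hs ht hst (sPart B hBcomm s) (sPart (Subgroup.center G) hZcomm s)
        (sPart A hAcomm t) (sPart (Subgroup.center G) hZcomm t) (sPart_isPGroup _ _ _)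
        (sPart_isPGroup _ _ _)
      · rintro z ⟨hz, k, hk⟩
        exact ⟨(hBmem z).2 ⟨Subgroup.mem_centralizer_singleton_iff.2
          ((Subgroup.mem_center_iff.1 hz h).symm), coprime_of_pow54 hs hp hsp hk⟩, k, hk⟩
      · rintro z ⟨hz, k, hk⟩
        exact ⟨(hAmem z).2 ⟨Subgroup.mem_centralizer_singleton_iff.2
          ((Subgroup.mem_center_iff.1 hz w).symm), coprime_of_pow54 ht hp htp hk⟩, k, hk⟩
      · intro heq
        obtain ⟨v, hvZ, ⟨k, hk⟩, hvw⟩ := hAct G p a hp hap hX t ht htp hNt w hwp hwZ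
        have hvk : v ^ t ^ k = 1 := by rw [← hk]; exact pow_orderOf_eq_one v
        have hvA : v ∈ sPart A hAcomm t :=
          ⟨(hAmem v).2 ⟨Subgroup.mem_centralizer_singleton_iff.2 hvw,
            coprime_of_pow54 ht hp htp hvk⟩, k, hvk⟩
        rw [← heq] at hvA
        exact hvZ hvA.1
      · rintro b - y ⟨hy, k, hk⟩
        have hy' := (hAmem y).1 hy
        refine ⟨(hAmem _).2 ⟨hnorm b y hy'.1, by rw [orderOf_conj54]; exact hy'.2⟩, k, ?_⟩
        rw [conj_pow, hk]
        group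
      · rintro b - y - ⟨hc, k, hk⟩
        have h1 := Subgroup.mem_center_iff.1 hc b
        have h2 : b * y * b⁻¹ = y := by
          have h3 : b * (b * y * b⁻¹) = b * y := by rw [h1]; group
          exact mul_left_cancel h3
        rw [h2] at hc hk
        exact ⟨hc, k, hk⟩
      · rintro b ⟨hbB, k, hk⟩ y ⟨hyA, l, hl⟩ hyZ hby
        have hyZ' : y ∉ Subgroup.center G := fun hc => hyZ ⟨hc, l, hl⟩
        have e1 := hAcen y hyA hyZ'
        have hbC : b ∈ Subgroup.centralizer ({w} : Set G) := by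
          rw [← e1]; exact Subgroup.mem_centralizer_singleton_iff.2 hby
        have hbA : b ∈ A := (hAmem b).2 ⟨hbC, ((hBmem b).1 hbB).2⟩
        exact ⟨hAB b hbA hbB, k, hk⟩
      · rintro b ⟨hb, -⟩ y -
        exact (Subgroup.mem_center_iff.1 hb y).symm
    obtain ⟨s, t, hs, ht, hst, hsp, htp, hNs, hNt⟩ := hTwo
    have k1 := key s t hs ht hst hsp htp hNt
    have k2 := key t s ht hs (Ne.symm hst) htp hsp hNs
    rw [card_sPart B hBcomm hs, card_sPart A hAcomm ht, hAcard, hBcard] at k1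
    rw [card_sPart B hBcomm ht, card_sPart A hAcomm hs, hAcard, hBcard] at k2
    exact absurd k1 (lt_asymm k2)

example : PkgMem.{0} → PkgAct.{0} → PkgF2a.{0} → PkgF2.{0} := pkgF2
example : PkgMem.{3} → PkgAct.{3} → PkgF2a.{3} → PkgF2.{3} := pkgF2

end Cfsg.Agent.Lib.Helper54.S4033
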